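import Cfsg.Agent.H545.Fx.SgE

/-!
# S5719, orthogonal groups, `q` even: orders (helper545)

`card_Qg`, `card_Zg`, `index_le`.
-/

set_option autoImplicit false
set_option linter.unusedSectionVars false
set_option linter.unusedSimpArgs false

namespace Cfsg.Agent.H545.Fx

open QuadraticMap Cfsg.Agent.LieClassical.OrthCore Cfsg.Agent.H989.Gs.Gen Module

variable {F V : Type*} [Field F] [AddCommGroup V] [Module F V] {Q : QuadraticForm F V}

/-- the four conditions -/
noncomputable def Wd (Q : QuadraticForm F V) (e y e1 y1 : V) : Submodule F V :=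
  LinearMap.ker (((polarBilin Q e).prod (polarBilin Q y)).prod ((polarBilin Q e1).prod (polarBilin Q y1)))

theorem mem_Wd {e y e1 y1 w : V} : w ∈ Wd Q e y e1 y1 ↔
    (polar Q e w = 0 ∧ polar Q y w = 0) ∧ polar Q e1 w = 0 ∧ polar Q y1 w = 0 := by
  rw [Wd, LinearMap.mem_ker]
  simp [Prod.ext_iff]

variable [FiniteDimensional F V] [Finite F]

omit [FiniteDimensional F V] [Finite F] in
theorem finite_E [Finite V] : Finite ↥(E Q) := by
  have : Finite (V ≃ₗ[F] V) := Finite.of_injective (fun g : V ≃ₗ[F] V => (g : V → V)) DFunLike.coe_injective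
  infer_instance

theorem card_Wd (e y e1 y1 : V) :
    Nat.card F ^ (finrank F V - 4) ≤ Nat.card (Wd Q e y e1 y1) := by
  have := Fintype.ofFinite F
  rw [Module.natCard_eq_pow_finrank (K := F) (V := ↥(Wd Q e y e1 y1))]
  apply Nat.pow_le_pow_right Nat.card_pos
  have h1 := LinearMap.finrank_range_add_finrank_ker
    (((polarBilin Q e).prod (polarBilin Q y)).prod ((polarBilin Q e1).prod (polarBilin Q y1)))
  have h2 : finrank F (LinearMap.range (((polarBilin Q e).prod (polarBilin Q y)).prod
      ((polarBilin Q e1).prod (polarBilin Q y1)))) ≤ 4 := by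
    refine (Submodule.finrank_le _).trans ?_
    rw [finrank_prod, finrank_prod, finrank_self]
  unfold Wd
  omega

/-- the order of `Qg` -/
theorem card_Qg (h2 : (2 : F) = 0) (hQ : Nondeg Q) {e y : V} (hl : Ln Q e y) (hN : 4 ≤ finrank F V) :
    Nat.card F ^ (2 * finrank F V - 7) ≤ Nat.card (Qg Q e y) := by
  have hVf : Finite V := Module.finite_of_finite F
  obtain ⟨e1, h1, h3⟩ := exists_dual hQ hl.ind 1 0
  obtain ⟨y1, h4, h5⟩ := exists_dual hQ hl.ind 0 1
  have hw1 : ∀ w : Wd Q e y e1 y1, polar Q e w = 0 := fun w => (mem_Wd.1 w.2).1.1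
  have hw2 : ∀ w : Wd Q e y e1 y1, polar Q y w = 0 := fun w => (mem_Wd.1 w.2).1.2
  have hw3 : ∀ w : Wd Q e y e1 y1, polar Q w e1 = 0 := fun w => by rw [polar_comm]; exact (mem_Wd.1 w.2).2.1
  have hw4 : ∀ w : Wd Q e y e1 y1, polar Q w y1 = 0 := fun w => by rw [polar_comm]; exact (mem_Wd.1 w.2).2.2
  have hw1' : ∀ w : Wd Q e y e1 y1, polar Q w e = 0 := fun w => by rw [polar_comm]; exact hw1 w
  have hw2' : ∀ w : Wd Q e y e1 y1, polar Q w y = 0 := fun w => by rw [polar_comm]; exact hw2 w
  have hye : polar Q y e = 0 := hl.symm.ey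
  let Φ : (Wd Q e y e1 y1 × Wd Q e y e1 y1) × F → Qg Q e y := fun p =>
    ⟨S Q e p.1.1 * S Q y p.1.2 * S Q e (p.2 • y),
      mul_mem (mul_mem (S_mem_Qg h2 hl (hw1 _) (hw2 _)) (by
        rw [Qg_symm]
        exact S_mem_Qg h2 hl.symm (hw2 _) (hw1 _))) (Zg_le h2 hl ⟨p.2, rfl⟩)⟩
  have a1 : ∀ p, ap (Φ p : ↥(E Q)) e1 = e1 + ((p.1.1 : V) - Q p.1.1 • e + p.2 • y) := by
    intro p
    show ap (S Q e p.1.1 * S Q y p.1.2 * S Q e (p.2 • y)) e1 = _
    rw [ap_mul, ap_mul, S_line hl, h1, h3, S_ap hl.qy (hw2 _), S_ap hl.qe (hw1 _)]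
    simp only [polar_add_right, polar_sub_right, polar_smul_right, polar_smul_left, h1, h3, hw3, hw2', hw1', hw1, hw2,
      polar_self0 h2, hl.ey, hye, smul_eq_mul]
    module
  have a2 : ∀ p, ap (Φ p : ↥(E Q)) y1 =
      y1 + ((p.1.2 : V) - Q p.1.2 • y - (polar Q (p.1.1 : V) (p.1.2 : V) + p.2) • e) := by
    intro p
    show ap (S Q e p.1.1 * S Q y p.1.2 * S Q e (p.2 • y)) y1 = _
    rw [ap_mul, ap_mul, S_line hl, h4, h5, S_ap hl.qy (hw2 _), S_ap hl.qe (hw1 _)]
    simp only [polar_add_right, polar_sub_right, polar_smul_right, polar_smul_left, h4, h5, hw4, hw2', hw1', hw1, hw2,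
      polar_self0 h2, hl.ey, hye, smul_eq_mul]
    module
  have hinj : Function.Injective Φ := by
    rintro ⟨⟨w, w'⟩, c⟩ ⟨⟨u, u'⟩, d⟩ hpq
    have e3 := a1 ⟨⟨w, w'⟩, c⟩
    rw [hpq, a1] at e3
    have e4 := a2 ⟨⟨w, w'⟩, c⟩
    rw [hpq, a2] at e4
    simp only at e3 e4
    replace e3 := add_left_cancel e3
    replace e4 := add_left_cancel e4
    -- compare
    have b1 := congrArg (fun v => polar Q v e1) e3
    have b2 := congrArg (fun v => polar Q v y1) e3
    simp only [polar_add_left, polar_sub_left, polar_smul_left, hw3, hw4, h1, h3, h4, h5, smul_eq_mul] at b1 b2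
    have c1 : Q u = Q w := by linear_combination -b1
    have c2 : d = c := by linear_combination b2
    rw [c1, c2] at e3
    have c3 : (u : V) = w := by
      have := add_right_cancel e3
      exact sub_left_inj.1 this
    have b3 := congrArg (fun v => polar Q v y1) e4
    have b4 := congrArg (fun v => polar Q v e1) e4
    simp only [polar_add_left, polar_sub_left, polar_smul_left, hw3, hw4, h1, h3, h4, h5, smul_eq_mul] at b3 b4
    have c4 : Q u' = Q w' := by linear_combination -b3
    have c5 : polar Q (u : V) (u' : V) + d = polar Q (w : V) (w' : V) + c := by linear_combination -b4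
    rw [c4, c5] at e4
    have c6 : (u' : V) = w' := by
      have := sub_left_inj.1 e4
      exact sub_left_inj.1 this
    rw [Prod.mk.injEq, Prod.mk.injEq]
    exact ⟨⟨Subtype.ext c3.symm, Subtype.ext c6.symm⟩, c2.symm⟩
  have hfin : Finite ↥(E Q) := finite_E
  have h6 := Nat.card_le_card_of_injective Φ hinj
  rw [Nat.card_prod, Nat.card_prod] at h6
  refine le_trans ?_ h6
  have h7 := card_Wd (Q := Q) e y e1 y1
  have h8 : 2 * finrank F V - 7 = (finrank F V - 4) + (finrank F V - 4) + 1 := by omega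
  rw [h8, pow_succ, pow_add]
  exact Nat.mul_le_mul_right _ (Nat.mul_le_mul h7 h7)

theorem card_Zg (hQ : Nondeg Q) {e y : V} (hl : Ln Q e y) : Nat.card (Zg hl) = Nat.card F := by
  obtain ⟨e1, h1, h2⟩ := exists_dual hQ hl.ind 1 0
  obtain ⟨y1, h3, h4⟩ := exists_dual hQ hl.ind 0 1
  symm
  refine Nat.card_congr (Equiv.ofBijective
    (fun c : F => (⟨S Q e (c • y), ⟨c, rfl⟩⟩ : Zg hl)) ⟨?_, ?_⟩)
  · intro c d hcd
    have e3 := congrArg (fun g : Zg hl => polar Q (ap (g : ↥(E Q)) e1) y1) hcd
    simp only [S_line hl, polar_add_left, polar_sub_left, polar_smul_left, h1, h2, h3, h4, smul_eq_mul] at e3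
    linear_combination e3
  · rintro ⟨g, c, hc⟩
    exact ⟨c, Subtype.ext hc.symm⟩

/-- the class of a long root element -/
theorem index_le (hQ : Nondeg Q) {e x : V} (hl : Ln Q e x) :
    (Subgroup.centralizer ({S Q e x} : Set ↥(E Q))).index ≤ Nat.card F ^ (2 * finrank F V - 1) := by
  classical
  have := Fintype.ofFinite F
  have hVf : Finite V := Module.finite_of_finite F
  have := Fintype.ofFinite V
  have hfin : Finite ↥(E Q) := finite_E
  set t := S Q e x with ht
  -- the stabiliser of the pair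
  let St : Subgroup ↥(E Q) :=
    { carrier := {g | ap g e = e ∧ ap g x = x}
      one_mem' := ⟨ap_one _, ap_one _⟩
      mul_mem' := by
        rintro g g' ⟨h1, h2⟩ ⟨h1', h2'⟩
        exact ⟨by rw [ap_mul, h1', h1], by rw [ap_mul, h2', h2]⟩
      inv_mem' := by
        rintro g ⟨h1, h2⟩
        exact ⟨ap_inv_of h1, ap_inv_of h2⟩ }
  have hSt : St ≤ Subgroup.centralizer ({t} : Set ↥(E Q)) := by
    rintro g ⟨h1, h2⟩
    rw [Subgroup.mem_centralizer_singleton_iff, ht]
    exact S_comm h1 h2
  refine (Subgroup.index_antitone hSt).trans ?_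
  have he0 : e ≠ 0 := by
    rintro rfl
    exact one_ne_zero (hl.ind 1 0 (by simp)).1
  -- the pairs
  let Pr := {p : V × V // p.1 ≠ 0 ∧ polar Q p.1 p.2 = 0}
  let φ : ↥(E Q) ⧸ St → Pr := Quotient.lift
    (fun g : ↥(E Q) => (⟨(ap g e, ap g x), ap_ne_zero _ he0, by
      show polar Q (ap g e) (ap g x) = 0
      rw [polar_ap, hl.ey]⟩ : Pr)) (by
      intro a b hab
      have h2 : a⁻¹ * b ∈ St := QuotientGroup.leftRel_apply.1 hab
      obtain ⟨h3, h4⟩ := h2
      have h5 : ap a e = ap b e := by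
        have := congrArg (ap a) h3
        rw [← ap_mul, mul_inv_cancel_left] at this
        exact this.symm
      have h6 : ap a x = ap b x := by
        have := congrArg (ap a) h4
        rw [← ap_mul, mul_inv_cancel_left] at this
        exact this.symm
      exact Subtype.ext (Prod.ext h5 h6))
  have hφ : Function.Injective φ := by
    intro a b hab
    induction a using QuotientGroup.induction_on with
    | H a =>
      induction b using QuotientGroup.induction_on with
      | H b =>
        have h5 : ap a e = ap b e := congrArg (fun s : Pr => s.1.1) hab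
        have h6 : ap a x = ap b x := congrArg (fun s : Pr => s.1.2) hab
        rw [QuotientGroup.eq]
        refine ⟨?_, ?_⟩
        · rw [ap_mul, ← h5]
          exact ap_inv_ap _ _
        · rw [ap_mul, ← h6]
          exact ap_inv_ap _ _
  have h1 : St.index ≤ Nat.card Pr := Nat.card_le_card_of_injective φ hφ
  refine h1.trans ?_
  have hker : ∀ u : V, u ≠ 0 → Nat.card {v : V // polar Q u v = 0} ≤ Nat.card F ^ (finrank F V - 1) := by
    intro u hu
    have h0 : Nat.card {v : V // polar Q u v = 0} = Nat.card (LinearMap.ker (polarBilin Q u)) := rfl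
    rw [h0, Module.natCard_eq_pow_finrank (K := F)]
    apply Nat.pow_le_pow_right Nat.card_pos
    have h3 := LinearMap.finrank_range_add_finrank_ker (polarBilin Q u)
    have h4 : 0 < finrank F (LinearMap.range (polarBilin Q u)) := by
      rw [Nat.pos_iff_ne_zero]
      intro h0
      rw [Submodule.finrank_eq_zero, LinearMap.range_eq_bot] at h0
      apply hu
      apply hQ
      intro v
      have := congrArg (fun f => f v) h0
      exact this
    omega
  have hN : 0 < finrank F V := by
    rw [Module.finrank_pos_iff]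
    exact ⟨⟨e, 0, he0⟩⟩
  have h2 : Nat.card Pr ≤ Nat.card (Σ u : {u : V // u ≠ 0}, {v : V // polar Q u.1 v = 0}) :=
    Nat.card_le_card_of_injective
      (fun p : Pr => (⟨⟨p.1.1, p.2.1⟩, ⟨p.1.2, p.2.2⟩⟩ : Σ u : {u : V // u ≠ 0}, {v : V // polar Q u.1 v = 0})) (by
      rintro ⟨⟨u, v⟩, hp⟩ ⟨⟨u', v'⟩, hp'⟩ h
      simp only [Sigma.mk.injEq, Subtype.mk.injEq] at h
      obtain ⟨rfl, h⟩ := h
      have h' := eq_of_heq h
      simp only [Subtype.mk.injEq] at h'
      subst h'
      rfl)
  refine h2.trans ?_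
  rw [Nat.card_sigma]
  calc ∑ u : {u : V // u ≠ 0}, Nat.card {v : V // polar Q u.1 v = 0}
      ≤ ∑ _u : {u : V // u ≠ 0}, Nat.card F ^ (finrank F V - 1) := Finset.sum_le_sum fun u _ => hker u.1 u.2
    _ = Fintype.card {u : V // u ≠ 0} * Nat.card F ^ (finrank F V - 1) := by
        rw [Finset.sum_const, smul_eq_mul, Finset.card_univ]
    _ ≤ Nat.card F ^ finrank F V * Nat.card F ^ (finrank F V - 1) := by
        apply Nat.mul_le_mul_right
        refine (Fintype.card_subtype_le _).trans ?_
        rw [← Nat.card_eq_fintype_card, Module.natCard_eq_pow_finrank (K := F)]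
    _ = Nat.card F ^ (2 * finrank F V - 1) := by
        rw [← pow_add]
        congr 1
        omega

end Cfsg.Agent.H545.Fx
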