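import Cfsg.Agent.H545.Fx.EndE
import Cfsg.Agent.H842.IF.Defs

/-!
# S5719, orthogonal groups, `q` even: the end game (helper545)

`end_game` : in a counterexample, `A` contains no long root element.
-/

set_option autoImplicit false
set_option linter.unusedSectionVars false
set_option linter.unusedSimpArgs false

namespace Cfsg.Agent.H545.Fx

open QuadraticMap Cfsg.Agent.LieClassical.OrthCore Cfsg.Agent.H989.Gs.Gen Module Cfsg.Agent.H209.Fxy

/-- the numerical step -/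
theorem num {q N Qc C R W f : ℕ} (hq : 2 ≤ q) (hN : 8 ≤ N) (h0 : q ^ (2 * N - 7) ≤ Qc) (h1 : Qc ≤ C * q)
    (h2 : C ≤ R * f) (h3 : R ^ 2 * q ≤ Qc * W ^ 2) (h4 : 2 * W ≤ q) (h5 : f ^ 5 < q ^ (2 * N - 1)) : False := by
  have hq0 : 0 < q := by omega
  have hQ0 : 0 < Qc := lt_of_lt_of_le (pow_pos hq0 _) h0
  have a1 : 4 * R ^ 2 ≤ Qc * q := by
    refine Nat.le_of_mul_le_mul_right ?_ hq0
    calc 4 * R ^ 2 * q = 4 * (R ^ 2 * q) := by ring
      _ ≤ 4 * (Qc * W ^ 2) := Nat.mul_le_mul_left _ h3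
      _ = Qc * (2 * W) ^ 2 := by ring
      _ ≤ Qc * q ^ 2 := Nat.mul_le_mul_left _ (Nat.pow_le_pow_left h4 2)
      _ = Qc * q * q := by ring
  have a2 : Qc ^ 2 ≤ R ^ 2 * (f ^ 2 * q ^ 2) := by
    calc Qc ^ 2 ≤ (R * f * q) ^ 2 := Nat.pow_le_pow_left (h1.trans (Nat.mul_le_mul_right _ h2)) 2
      _ = R ^ 2 * (f ^ 2 * q ^ 2) := by ring
  have a3 : 4 * Qc ≤ q ^ 3 * f ^ 2 := by
    refine Nat.le_of_mul_le_mul_left ?_ hQ0
    calc Qc * (4 * Qc) = 4 * Qc ^ 2 := by ring
      _ ≤ 4 * (R ^ 2 * (f ^ 2 * q ^ 2)) := Nat.mul_le_mul_left _ a2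
      _ = 4 * R ^ 2 * (f ^ 2 * q ^ 2) := by ring
      _ ≤ Qc * q * (f ^ 2 * q ^ 2) := Nat.mul_le_mul_right _ a1
      _ = Qc * (q ^ 3 * f ^ 2) := by ring
  have a4 : (2 * q ^ (N - 5)) ^ 2 ≤ f ^ 2 := by
    refine Nat.le_of_mul_le_mul_left ?_ (pow_pos hq0 3)
    calc q ^ 3 * (2 * q ^ (N - 5)) ^ 2 = 4 * q ^ (3 + 2 * (N - 5)) := by
          rw [pow_add q 3, pow_mul' q 2]; ring
      _ = 4 * q ^ (2 * N - 7) := by
          congr 2
          omega
      _ ≤ 4 * Qc := Nat.mul_le_mul_left _ h0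
      _ ≤ q ^ 3 * f ^ 2 := a3
  have a5 : 2 * q ^ (N - 5) ≤ f := by
    by_contra hlt
    rw [not_le] at hlt
    exact absurd (Nat.pow_lt_pow_left hlt two_ne_zero) (not_lt.2 a4)
  have a6 : q ^ (2 * N - 1) ≤ f ^ 5 := by
    calc q ^ (2 * N - 1) ≤ q ^ (5 * (N - 5)) := Nat.pow_le_pow_right hq0 (by omega)
      _ = (q ^ (N - 5)) ^ 5 := by rw [← pow_mul, mul_comm]
      _ ≤ (2 * q ^ (N - 5)) ^ 5 := Nat.pow_le_pow_left (by omega) 5
      _ ≤ f ^ 5 := Nat.pow_le_pow_left a5 5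
  omega

variable {F V : Type*} [Field F] [AddCommGroup V] [Module F V] {Q : QuadraticForm F V}
  [FiniteDimensional F V] [Finite F]

theorem S_sq (h2 : (2 : F) = 0) {e x : V} (hl : Ln Q e x) : S Q e x * S Q e x = 1 := by
  rw [← S_add hl.qe hl.ey hl.ey, ← two_smul F, h2, zero_smul, S_zero]

theorem S_ne_one (hQ : Nondeg Q) {e x : V} (hl : Ln Q e x) : S Q e x ≠ 1 := by
  intro h
  obtain ⟨v, h1, h3⟩ := exists_dual hQ hl.ind 1 0
  have h4 := congrArg (fun g => ap g v) h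
  simp only [ap_one] at h4
  rw [S_ap' hl.qe hl.ey hl.qy, h1, h3] at h4
  rw [one_smul, zero_smul, sub_zero] at h4
  have h5 : x = 0 := add_eq_left.1 h4
  exact one_ne_zero (hl.ind 0 1 (by rw [h5]; simp)).2

theorem orderOf_S (h2 : (2 : F) = 0) (hQ : Nondeg Q) {e x : V} (hl : Ln Q e x) : orderOf (S Q e x) = 2 :=
  orderOf_eq_prime (by rw [pow_two]; exact S_sq h2 hl) (S_ne_one hQ hl)

/-- the step -/
theorem step (h2 : (2 : F) = 0) (hQ : Nondeg Q) (hN : 8 ≤ finrank F V) {A : Subgroup ↥(E Q)} (hA : H255.IFK.Fix A)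
    {e x y : V} (hx : Ln Q e x) (hz : S Q e x ∈ A) (hy : Ln Q e y) (hxy : polar Q x y = 0) :
    ∀ c : F, S Q e (c • y) ∈ A := by
  have hVf : Finite V := Module.finite_of_finite F
  have hfin : Finite ↥(E Q) := finite_E
  by_contra hcon
  have hZA : ¬ Zg hy ≤ A := fun h => hcon fun c => h ⟨c, rfl⟩
  obtain ⟨f, h3, h4⟩ := hA _ hz (orderOf_S h2 hQ hx)
  have hzQ : S Q e x ∈ Qg Q e y := S_mem_Qg h2 hy hx.ey (by rw [polar_comm]; exact hxy)
  set C := Qg Q e y ⊓ Subgroup.centralizer ({S Q e x} : Set ↥(E Q)) with hC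
  set R := A ⊓ C with hR
  have hRQ : R ≤ Qg Q e y := inf_le_right.trans inf_le_left
  have hRZ : ¬ Zg hy ≤ R := fun h => hZA (h.trans inf_le_left)
  have b1 := H255.IFK.card_centralizer_ge (sp h2 hQ hy) le_rfl hzQ
  have b2 := H255.IFK.iso (sp h2 hQ hy) hRQ hRZ
  have b3 := H255.IFK.rel_ge (h3 C inf_le_right)
  rw [card_Zg hQ hy] at b1 b2
  have b4 : 2 * Nat.card (R ⊓ Zg hy : Subgroup ↥(E Q)) ≤ Nat.card F := by
    rw [← card_Zg hQ hy]
    have h5 := H255.IFK.card_mul_rel (inf_le_right : R ⊓ Zg hy ≤ Zg hy)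
    have h6 : (R ⊓ Zg hy).relIndex (Zg hy) ≠ 1 := by
      rw [Ne, Subgroup.relIndex_eq_one]
      intro h7
      exact hRZ (h7.trans inf_le_left)
    have h7 : (R ⊓ Zg hy).relIndex (Zg hy) ≠ 0 := Subgroup.index_ne_zero_of_finite
    rw [← h5, mul_comm]
    exact Nat.mul_le_mul_left _ (by omega)
  have b5 : f ^ 5 < Nat.card F ^ (2 * finrank F V - 1) := by
    refine lt_of_le_of_lt ?_ (lt_of_lt_of_le h4 (index_le hQ hx))
    refine Nat.le_mul_of_pos_right _ ?_
    exact (Set.ncard_pos (Set.toFinite _)).2 ⟨S Q e x, hz, IsConj.refl _⟩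
  exact num (Finite.one_lt_card) hN (card_Qg h2 hQ hy (by omega)) b1 b3 b2 b4 b5

/-! ### singular vectors -/

theorem exists_sing [CharP F 2] (S K : Submodule F V) (h : finrank F K + 3 ≤ finrank F S) :
    ∃ w ∈ S, w ∉ K ∧ Q w = 0 := by
  obtain ⟨D, hD⟩ := Submodule.exists_isCompl K
  have h1 := Submodule.finrank_sup_add_finrank_inf_eq S D
  have h3 := Submodule.finrank_add_eq_of_isCompl hD
  have h4 : finrank F ↥(S ⊔ D) ≤ finrank F V := Submodule.finrank_le _
  have h5 : 3 ≤ finrank F ↥(S ⊓ D) := by omega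
  obtain ⟨u, hu, hu0⟩ : ∃ u ∈ S ⊓ D, u ≠ 0 := by
    apply Submodule.exists_mem_ne_zero_of_ne_bot
    intro h0
    rw [h0, finrank_bot] at h5
    omega
  have hK : ∀ w ∈ S ⊓ D, w ≠ 0 → w ∉ K := fun w hw hw0 hwK =>
    hw0 ((Submodule.disjoint_def.1 hD.disjoint) w hwK hw.2)
  by_cases hQu : Q u = 0
  · exact ⟨u, hu.1, hK u hu hu0, hQu⟩
  have h6 := LinearMap.finrank_range_add_finrank_ker ((polarBilin Q u).domRestrict (S ⊓ D))
  have h7 : finrank F (LinearMap.range ((polarBilin Q u).domRestrict (S ⊓ D))) ≤ 1 := by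
    refine (Submodule.finrank_le _).trans ?_
    rw [finrank_self]
  have h8 : 2 ≤ finrank F (LinearMap.ker ((polarBilin Q u).domRestrict (S ⊓ D))) := by omega
  have h9 : ¬ (LinearMap.ker ((polarBilin Q u).domRestrict (S ⊓ D))).map (S ⊓ D).subtype ≤ F ∙ u := by
    intro hle
    have h10 := Submodule.finrank_mono hle
    rw [finrank_span_singleton hu0] at h10
    have h11 := LinearMap.finrank_range_of_inj (f := (S ⊓ D).subtype.domRestrict
      (LinearMap.ker ((polarBilin Q u).domRestrict (S ⊓ D)))) (by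
        intro a b hab
        exact Subtype.ext (Subtype.ext hab))
    rw [LinearMap.range_domRestrict] at h11
    omega
  obtain ⟨v, hv, hvu⟩ := SetLike.not_le_iff_exists.1 h9
  obtain ⟨⟨v', hv'⟩, hv'', rfl⟩ := hv
  have hpv : polar Q u v' = 0 := hv''
  simp only [Submodule.subtype_apply] at hvu
  have hsq : ∀ a : F, ∃ b : F, b * b = a := fun a => by
    obtain ⟨b, hb⟩ := FiniteField.isSquare_of_char_two (ringChar.eq F 2) a
    exact ⟨b, hb.symm⟩
  obtain ⟨s, hs⟩ := hsq (Q u)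
  obtain ⟨t, ht⟩ := hsq (Q v')
  have hs0 : s ≠ 0 := by
    rintro rfl
    exact hQu (by rw [← hs, zero_mul])
  have hw : t • u + s • v' ∈ S ⊓ D := add_mem (Submodule.smul_mem _ _ hu) (Submodule.smul_mem _ _ hv')
  refine ⟨t • u + s • v', hw.1, hK _ hw ?_, ?_⟩
  · intro h0
    apply hvu
    rw [Submodule.mem_span_singleton]
    refine ⟨-(s⁻¹ * t), ?_⟩
    have h12 : s • v' = -(t • u) := by
      rw [eq_neg_iff_add_eq_zero, add_comm, h0]
    rw [← one_smul F v', ← inv_mul_cancel₀ hs0, ← smul_smul, h12]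
    module
  · rw [Q_add, QuadraticMap.map_smul, QuadraticMap.map_smul, polar_smul_left, polar_smul_right, hpv, ← hs, ← ht]
    simp only [smul_eq_mul, mul_zero, add_zero]
    have h2 : (2 : F) = 0 := CharTwo.two_eq_zero
    linear_combination s * s * t * t * h2

/-! ### connectivity -/

theorem ln_of {e w : V} (hqe : Q e = 0) (he : e ≠ 0) (hqw : Q w = 0) (hew : polar Q e w = 0)
    (hw : ∀ a : F, w ≠ a • e) : Ln Q e w := by
  refine ⟨hqe, hqw, hew, fun a b hab => ?_⟩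
  have hb : b = 0 := by
    by_contra hb
    apply hw (-(b⁻¹ * a))
    have h12 : b • w = -(a • e) := by
      rw [eq_neg_iff_add_eq_zero, add_comm, hab]
    rw [← one_smul F w, ← inv_mul_cancel₀ hb, ← smul_smul, h12]
    module
  refine ⟨?_, hb⟩
  rw [hb, zero_smul, add_zero] at hab
  exact (smul_eq_zero.1 hab).resolve_right he

theorem Ln.ne_zero {e y : V} (h : Ln Q e y) : e ≠ 0 := by
  rintro rfl
  exact one_ne_zero (h.ind 1 0 (by simp)).1

/-- the same first vector -/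
theorem same [CharP F 2] (hQ : Nondeg Q) (hN : 8 ≤ finrank F V) {A : Subgroup ↥(E Q)} (hA : H255.IFK.Fix A)
    {e x y : V} (hx : Ln Q e x) (hz : S Q e x ∈ A) (hy : Ln Q e y) : ∀ c : F, S Q e (c • y) ∈ A := by
  have h2 : (2 : F) = 0 := CharTwo.two_eq_zero
  by_cases hxy : polar Q x y = 0
  · exact step h2 hQ hN hA hx hz hy hxy
  -- an intermediate vector
  obtain ⟨w, hwS, hwK, hQw⟩ := exists_sing (Q := Q)
    (LinearMap.ker ((polarBilin Q e).prod ((polarBilin Q x).prod (polarBilin Q y)))) (F ∙ e) (by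
      have h3 := LinearMap.finrank_range_add_finrank_ker ((polarBilin Q e).prod ((polarBilin Q x).prod (polarBilin Q y)))
      have h4 : finrank F (LinearMap.range ((polarBilin Q e).prod ((polarBilin Q x).prod (polarBilin Q y)))) ≤ 3 := by
        refine (Submodule.finrank_le _).trans ?_
        rw [finrank_prod, finrank_prod, finrank_self]
      rw [finrank_span_singleton hx.ne_zero]
      omega)
  have hw : polar Q e w = 0 ∧ polar Q x w = 0 ∧ polar Q y w = 0 := by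
    have := LinearMap.mem_ker.1 hwS
    simpa [Prod.ext_iff] using this
  obtain ⟨w1, w2, w3⟩ := hw
  have hwe : ∀ a : F, w ≠ a • e := fun a h => hwK (by rw [h]; exact Submodule.mem_span_singleton.2 ⟨a, rfl⟩)
  have hlw : Ln Q e w := ln_of hx.qe hx.ne_zero hQw w1 hwe
  have h5 : ∀ c : F, S Q e (c • w) ∈ A := step h2 hQ hN hA hx hz hlw w2
  exact step h2 hQ hN hA hlw (by simpa using h5 1) hy (by rw [polar_comm]; exact w3)

theorem swap_mem {A : Subgroup ↥(E Q)} {e y : V} (hl : Ln Q e y) (h : S Q e y ∈ A) : S Q y e ∈ A := by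
  have h1 := S_swap' hl 1
  rw [one_smul, neg_smul, one_smul] at h1
  rw [h1, ← S_inv hl.qe hl.ey]
  exact inv_mem h

/-- all long root elements -/
theorem all [CharP F 2] (hQ : Nondeg Q) (hN : 8 ≤ finrank F V) {A : Subgroup ↥(E Q)} (hA : H255.IFK.Fix A)
    {e x e' x' : V} (hx : Ln Q e x) (hz : S Q e x ∈ A) (hx' : Ln Q e' x') : S Q e' x' ∈ A := by
  obtain ⟨p, hpS, hpK, hQp⟩ := exists_sing (Q := Q)
    (LinearMap.ker ((polarBilin Q e).prod (polarBilin Q e'))) ((F ∙ e) ⊔ (F ∙ e')) (by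
      have h3 := LinearMap.finrank_range_add_finrank_ker ((polarBilin Q e).prod (polarBilin Q e'))
      have h4 : finrank F (LinearMap.range ((polarBilin Q e).prod (polarBilin Q e'))) ≤ 2 := by
        refine (Submodule.finrank_le _).trans ?_
        rw [finrank_prod, finrank_self]
      have h5 := Submodule.finrank_add_le_finrank_add_finrank (F ∙ e) (F ∙ e')
      rw [finrank_span_singleton hx.ne_zero, finrank_span_singleton hx'.ne_zero] at h5
      omega)
  have hp : polar Q e p = 0 ∧ polar Q e' p = 0 := by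
    have := LinearMap.mem_ker.1 hpS
    simpa [Prod.ext_iff] using this
  obtain ⟨p1, p2⟩ := hp
  have hlp : Ln Q e p := ln_of hx.qe hx.ne_zero hQp p1 fun a h => hpK (by
    rw [h]; exact Submodule.mem_sup_left (Submodule.mem_span_singleton.2 ⟨a, rfl⟩))
  have hlp' : Ln Q e' p := ln_of hx'.qe hx'.ne_zero hQp p2 fun a h => hpK (by
    rw [h]; exact Submodule.mem_sup_right (Submodule.mem_span_singleton.2 ⟨a, rfl⟩))
  have c1 : S Q e p ∈ A := by simpa using same hQ hN hA hx hz hlp 1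
  have c2 : S Q p e' ∈ A := by simpa using same hQ hN hA hlp.symm (swap_mem hlp c1) hlp'.symm 1
  simpa using same hQ hN hA hlp' (swap_mem hlp'.symm c2) hx' 1

/-- a long root element belongs to a line -/
theorem ln_of_LR {z : ↥(E Q)} (hz : H842.IFE.LR z) : ∃ e x : V, Ln Q e x ∧ z = S Q e x := by
  obtain ⟨h1, e, w, he, hw, hew, hz⟩ := hz
  have he0 : e ≠ 0 := by
    rintro rfl
    exact h1 (by rw [hz, S_zero_left])
  refine ⟨e, w, ln_of he he0 hw hew fun a ha => ?_, hz⟩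
  exact h1 (by rw [hz, ha, S_self_smul _ he])

/-- `A` contains no long root element -/
theorem eq_top [CharP F 2] (hQ : Nondeg Q) (hN : 8 ≤ finrank F V) [IsSimpleGroup ↥(E Q)] {A : Subgroup ↥(E Q)}
    (hA : H255.IFK.Fix A) {z : ↥(E Q)} (hz : z ∈ A) (hLR : H842.IFE.LR z) : A = ⊤ := by
  obtain ⟨e, x, hl, rfl⟩ := ln_of_LR hLR
  let X : Set ↥(E Q) := {g | ∃ u w : V, Ln Q u w ∧ g = S Q u w}
  have hXA : Subgroup.closure X ≤ A := by
    rw [Subgroup.closure_le]
    rintro _ ⟨u, w, hl', rfl⟩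
    exact all hQ hN hA hl hz hl'
  have hn : (Subgroup.closure X).Normal := by
    refine ⟨fun n hn g => ?_⟩
    induction hn using Subgroup.closure_induction with
    | mem y hy =>
      obtain ⟨u, w, hl', rfl⟩ := hy
      rw [S_conj]
      exact Subgroup.subset_closure ⟨_, _, hl'.map g, rfl⟩
    | one => rw [mul_one, mul_inv_cancel]; exact one_mem _
    | mul y y' _ _ h1 h2 =>
      have : g * (y * y') * g⁻¹ = (g * y * g⁻¹) * (g * y' * g⁻¹) := by group
      rw [this]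
      exact mul_mem h1 h2
    | inv y _ h1 =>
      have : g * y⁻¹ * g⁻¹ = (g * y * g⁻¹)⁻¹ := by group
      rw [this]
      exact inv_mem h1
  rcases hn.eq_bot_or_eq_top with h | h
  · exfalso
    have h1 : S Q e x ∈ Subgroup.closure X := Subgroup.subset_closure ⟨e, x, hl, rfl⟩
    rw [h, Subgroup.mem_bot] at h1
    exact S_ne_one hQ hl h1
  · rw [h] at hXA
    exact top_le_iff.1 hXA

end Cfsg.Agent.H545.Fx

namespace Cfsg.Agent.H545.Fx

open QuadraticMap Cfsg.Agent.LieClassical.OrthCore Cfsg.Agent.H989.Gs.Gen Module Cfsg.Agent.H209.Fxy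

variable {F V : Type*} [Field F] [Fintype F] [CharP F 2] [AddCommGroup V] [Module F V] [Fintype V]
  {Q : QuadraticForm F V}

/-- **The end game**, both signs. -/
theorem end_game (hQ : Nondeg Q) (hd : 8 ≤ finrank F V) [IsSimpleGroup ↥(E Q)] (hna : ∃ a b : ↥(E Q), a * b ≠ b * a)
    {A : Subgroup ↥(E Q)} {Γ : Subgroup (MulAut ↥(E Q))} (h : IF A Γ) {z : ↥(E Q)} (hz : z ∈ A)
    (hLR : H842.IFE.LR z) : False := by
  have hfin : Finite ↥(E Q) := finite_E
  have hfd : FiniteDimensional F V := Module.finite_of_finrank_pos (by omega)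
  exact h.ne_top (eq_top hQ hd (H255.IFK.fix_of_IF h hna) hz hLR)

end Cfsg.Agent.H545.Fx
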