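import Cfsg.Agent.H989.Gs.Gen
import Cfsg.Agent.H255.IF.Key

/-!
# S5719, orthogonal groups, `q` even: the group of a totally singular line (helper545)

The frame: `T = E Q`, `Q` nondegenerate, characteristic two.
`sp` : the unipotent radical `Qg e y` of the stabiliser of the singular line `⟨e, y⟩` is special with centre the long root
group `Zg e y`.
-/

set_option autoImplicit false
set_option linter.unusedSectionVars false

namespace Cfsg.Agent.H545.Fx

open QuadraticMap Cfsg.Agent.LieClassical.OrthCore Cfsg.Agent.H989.Gs.Gen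

variable {F V : Type*} [Field F] [AddCommGroup V] [Module F V] {Q : QuadraticForm F V}

theorem ap_ne_zero (g : ↥(E Q)) {v : V} (hv : v ≠ 0) : ap g v ≠ 0 := by
  intro h0
  apply hv
  rw [← ap_inv_ap g v, h0]
  exact map_zero (g⁻¹ : V ≃ₗ[F] V)

/-! ### dual vectors -/

theorem exists_dual (hQ : Nondeg Q) {e y : V} (hind : ∀ a b : F, a • e + b • y = 0 → a = 0 ∧ b = 0) (a b : F) :
    ∃ v, polar Q e v = a ∧ polar Q y v = b := by
  have hs : Function.Surjective ((polarBilin Q e).prod (polarBilin Q y)) := by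
    rw [← LinearMap.range_eq_top]
    by_contra hne
    obtain ⟨φ, hφ, hle⟩ := Submodule.exists_le_ker_of_lt_top _ (lt_top_iff_ne_top.2 hne)
    have h1 : ∀ v, φ (polar Q e v, polar Q y v) = 0 := fun v => hle ⟨v, rfl⟩
    have h2 : ∀ s t : F, φ (s, t) = s * φ (1, 0) + t * φ (0, 1) := by
      intro s t
      have : (s, t) = s • ((1 : F), (0 : F)) + t • ((0 : F), (1 : F)) := by simp
      rw [this, map_add, map_smul, map_smul, smul_eq_mul, smul_eq_mul]
    have h3 : φ (1, 0) • e + φ (0, 1) • y = 0 := by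
      apply hQ
      intro v
      rw [polar_add_left, polar_smul_left, polar_smul_left, smul_eq_mul, smul_eq_mul]
      have := h1 v
      rw [h2] at this
      linear_combination this
    obtain ⟨h4, h5⟩ := hind _ _ h3
    apply hφ
    apply LinearMap.ext
    rintro ⟨s, t⟩
    rw [h2, h4, h5]
    simp
  obtain ⟨v, hv⟩ := hs (a, b)
  exact ⟨v, congrArg Prod.fst hv, congrArg Prod.snd hv⟩

/-- a singular line `⟨e, y⟩` -/
structure Ln (Q : QuadraticForm F V) (e y : V) : Prop where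
  qe : Q e = 0
  qy : Q y = 0
  ey : polar Q e y = 0
  ind : ∀ a b : F, a • e + b • y = 0 → a = 0 ∧ b = 0

theorem Ln.symm {e y : V} (h : Ln Q e y) : Ln Q y e := by
  refine ⟨h.qy, h.qe, by rw [polar_comm, h.ey], fun a b hab => ?_⟩
  rw [add_comm] at hab
  exact (h.ind _ _ hab).symm

theorem Ln.map {e y : V} (h : Ln Q e y) (g : ↥(E Q)) : Ln Q (ap g e) (ap g y) := by
  refine ⟨by rw [Q_ap, h.qe], by rw [Q_ap, h.qy], by rw [polar_ap, h.ey], fun a b hab => ?_⟩
  rw [← ap_smul, ← ap_smul, ← ap_add] at hab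
  apply h.ind
  by_contra hne
  exact ap_ne_zero g hne hab

theorem Ln.pc {e y : V} (h : Ln Q e y) (c : F) : polar Q e (c • y) = 0 := by
  rw [polar_smul_right, h.ey, smul_zero]

theorem Ln.qc {e y : V} (h : Ln Q e y) (c : F) : Q (c • y) = 0 := by
  rw [QuadraticMap.map_smul, h.qy, smul_zero]

/-- `(E^⊥)^⊥ = E` -/
theorem mem_line (hQ : Nondeg Q) {e y : V} (hl : Ln Q e y) {u : V}
    (hu : ∀ v, polar Q e v = 0 → polar Q y v = 0 → polar Q u v = 0) : ∃ a b : F, u = a • e + b • y := by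
  obtain ⟨e1, h1, h2⟩ := exists_dual hQ hl.ind 1 0
  obtain ⟨y1, h3, h4⟩ := exists_dual hQ hl.ind 0 1
  refine ⟨polar Q u e1, polar Q u y1, ?_⟩
  rw [← sub_eq_zero]
  apply hQ
  intro v
  have h5 := hu (v - polar Q e v • e1 - polar Q y v • y1) (by
    simp only [polar_sub_right, polar_smul_right, h1, h3, smul_eq_mul]; ring) (by
    simp only [polar_sub_right, polar_smul_right, h2, h4, smul_eq_mul]; ring)
  simp only [polar_sub_right, polar_smul_right, smul_eq_mul] at h5
  simp only [polar_sub_left, polar_add_left, polar_smul_left, smul_eq_mul]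
  linear_combination h5

/-! ### The group of a line -/

/-- the unipotent radical -/
def Qg (Q : QuadraticForm F V) (e y : V) : Subgroup ↥(E Q) where
  carrier := {g | ap g e = e ∧ ap g y = y ∧
    ∀ v, polar Q e v = 0 → polar Q y v = 0 → ∃ a b : F, ap g v = v + (a • e + b • y)}
  one_mem' := ⟨ap_one _, ap_one _, fun v _ _ => ⟨0, 0, by rw [ap_one]; simp⟩⟩
  mul_mem' := by
    rintro g g' ⟨h1, h2, h3⟩ ⟨h1', h2', h3'⟩
    refine ⟨by rw [ap_mul, h1', h1], by rw [ap_mul, h2', h2], fun v hv hv' => ?_⟩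
    obtain ⟨a, b, hab⟩ := h3 v hv hv'
    obtain ⟨a', b', hab'⟩ := h3' v hv hv'
    refine ⟨a + a', b + b', ?_⟩
    rw [ap_mul, hab', ap_add, ap_add, ap_smul, ap_smul, h1, h2, hab]
    module
  inv_mem' := by
    rintro g ⟨h1, h2, h3⟩
    have i1 : ap g⁻¹ e = e := ap_inv_of h1
    have i2 : ap g⁻¹ y = y := ap_inv_of h2
    refine ⟨i1, i2, fun v hv hv' => ?_⟩
    obtain ⟨a, b, hab⟩ := h3 v hv hv'
    refine ⟨-a, -b, ?_⟩
    have h4 := congrArg (ap g⁻¹) hab
    rw [ap_inv_ap, ap_add, ap_add, ap_smul, ap_smul, i1, i2] at h4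
    have h5 : ap g⁻¹ v = v - (a • e + b • y) := eq_sub_of_add_eq h4.symm
    rw [h5]
    module

theorem mem_Qg {e y : V} {g : ↥(E Q)} : g ∈ Qg Q e y ↔ ap g e = e ∧ ap g y = y ∧
    ∀ v, polar Q e v = 0 → polar Q y v = 0 → ∃ a b : F, ap g v = v + (a • e + b • y) := Iff.rfl

/-- the long root group -/
noncomputable def Zg {e y : V} (hl : Ln Q e y) : Subgroup ↥(E Q) where
  carrier := {g | ∃ c : F, g = S Q e (c • y)}
  one_mem' := ⟨0, by rw [zero_smul, S_zero]⟩
  mul_mem' := by
    rintro g g' ⟨c, hc⟩ ⟨c', hc'⟩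
    exact ⟨c + c', by rw [hc, hc', ← S_add hl.qe (hl.pc _) (hl.pc _), add_smul]⟩
  inv_mem' := by
    rintro g ⟨c, hc⟩
    exact ⟨-c, by rw [hc, S_inv hl.qe (hl.pc _), neg_smul]⟩

theorem mem_Zg {e y : V} (hl : Ln Q e y) {g : ↥(E Q)} : g ∈ Zg hl ↔ ∃ c : F, g = S Q e (c • y) := Iff.rfl

/-- the action of a long root element -/
theorem S_line {e y : V} (hl : Ln Q e y) (c : F) (v : V) :
    ap (S Q e (c • y)) v = v + (c * polar Q e v) • y - (c * polar Q y v) • e := by
  rw [S_ap' hl.qe (hl.pc c) (hl.qc c), polar_smul_left, smul_eq_mul]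
  module

/-- `S y (c e) = S e (-c y)` -/
theorem S_swap' {e y : V} (hl : Ln Q e y) (c : F) : S Q y (c • e) = S Q e ((-c) • y) := by
  apply ext_ap
  intro v
  rw [S_line hl.symm, S_line hl]
  module

theorem polar_self0 (h2 : (2 : F) = 0) (v : V) : polar Q v v = 0 := by rw [polar_self', h2, zero_mul]

theorem S_mem_Qg (h2 : (2 : F) = 0) {e y : V} (hl : Ln Q e y) {w : V} (hw : polar Q e w = 0) (hw' : polar Q y w = 0) :
    S Q e w ∈ Qg Q e y := by
  have h1 : polar Q w e = 0 := by rw [polar_comm, hw]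
  have h3 : polar Q w y = 0 := by rw [polar_comm, hw']
  refine ⟨?_, ?_, fun v hv hv' => ⟨-polar Q w v, 0, ?_⟩⟩
  · rw [S_ap hl.qe hw, polar_self0 h2, h1]
    simp
  · rw [S_ap hl.qe hw, hl.ey, h3]
    simp
  · rw [S_ap hl.qe hw, hv]
    module

theorem Qg_symm {e y : V} : Qg Q e y = Qg Q y e := by
  ext g
  rw [mem_Qg, mem_Qg]
  constructor
  · rintro ⟨h1, h2, h3⟩
    exact ⟨h2, h1, fun v hv hv' => by
      obtain ⟨a, b, hab⟩ := h3 v hv' hv
      exact ⟨b, a, by rw [hab, add_comm (a • e)]⟩⟩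
  · rintro ⟨h1, h2, h3⟩
    exact ⟨h2, h1, fun v hv hv' => by
      obtain ⟨a, b, hab⟩ := h3 v hv' hv
      exact ⟨b, a, by rw [hab, add_comm (a • y)]⟩⟩

theorem Zg_le (h2 : (2 : F) = 0) {e y : V} (hl : Ln Q e y) : Zg hl ≤ Qg Q e y := by
  rintro g ⟨c, rfl⟩
  exact S_mem_Qg h2 hl (hl.pc c) (by rw [polar_smul_right, polar_self0 h2, smul_zero])

/-- an isometry trivial on `E^⊥` is a long root element -/
theorem mem_Zg_of_triv (hQ : Nondeg Q) {e y : V} (hl : Ln Q e y) {g : ↥(E Q)}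
    (hg : ∀ v, polar Q e v = 0 → polar Q y v = 0 → ap g v = v) : g ∈ Zg hl := by
  obtain ⟨e1, h1, h2⟩ := exists_dual hQ hl.ind 1 0
  obtain ⟨y1, h3, h4⟩ := exists_dual hQ hl.ind 0 1
  have key : ∀ u, ∃ a b : F, ap g u = u + (a • e + b • y) := by
    intro u
    obtain ⟨a, b, hab⟩ := mem_line hQ hl (u := ap g u - u) (fun v hv hv' => by
      have h5 := polar_ap g u v
      rw [hg v hv hv'] at h5
      rw [polar_sub_left, h5, sub_self])
    exact ⟨a, b, by rw [← hab]; abel⟩
  obtain ⟨a1, b1, hab1⟩ := key e1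
  obtain ⟨a2, b2, hab2⟩ := key y1
  have hdec : ∀ v, ap g v = v + (polar Q e v • (a1 • e + b1 • y) + polar Q y v • (a2 • e + b2 • y)) := by
    intro v
    have h5 := hg (v - polar Q e v • e1 - polar Q y v • y1) (by
      simp only [polar_sub_right, polar_smul_right, h1, h3, smul_eq_mul]; ring) (by
      simp only [polar_sub_right, polar_smul_right, h2, h4, smul_eq_mul]; ring)
    rw [ap_sub, ap_sub, ap_smul, ap_smul, hab1, hab2] at h5
    have h6 : ap g v = v - polar Q e v • e1 - polar Q y v • y1 + polar Q y v • (y1 + (a2 • e + b2 • y)) +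
        polar Q e v • (e1 + (a1 • e + b1 • y)) := by
      rw [← h5]; abel
    rw [h6]
    module
  have hQ' : ∀ v, polar Q e v * (a1 * polar Q e v + b1 * polar Q y v) +
      polar Q y v * (a2 * polar Q e v + b2 * polar Q y v) = 0 := by
    intro v
    have h5 := Q_ap g v
    rw [hdec v, Q_add] at h5
    have h6 : Q (polar Q e v • (a1 • e + b1 • y) + polar Q y v • (a2 • e + b2 • y)) = 0 := by
      have : polar Q e v • (a1 • e + b1 • y) + polar Q y v • (a2 • e + b2 • y) =
          (polar Q e v * a1 + polar Q y v * a2) • e + (polar Q e v * b1 + polar Q y v * b2) • y := by module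
      rw [this, Q_add, QuadraticMap.map_smul, QuadraticMap.map_smul, hl.qe, hl.qy, polar_smul_left, polar_smul_right,
        hl.ey]
      simp
    have hve : polar Q v e = polar Q e v := polar_comm _ _ _
    have hvy : polar Q v y = polar Q y v := polar_comm _ _ _
    rw [h6] at h5
    simp only [polar_add_right, polar_smul_right, smul_eq_mul, hve, hvy] at h5
    linear_combination h5
  have q1 := hQ' e1
  have q2 := hQ' y1
  have q3 := hQ' (e1 + y1)
  rw [polar_add_right, polar_add_right, h1, h2, h3, h4] at q3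
  rw [h1, h2] at q1
  rw [h3, h4] at q2
  have r1 : a1 = 0 := by linear_combination q1
  have r2 : b2 = 0 := by linear_combination q2
  have r3 : a2 = -b1 := by linear_combination q3 - q1 - q2
  refine ⟨b1, ext_ap fun v => ?_⟩
  rw [hdec v, S_line hl, r1, r2, r3]
  module

/-- `Qg` is special -/
theorem sp (h2 : (2 : F) = 0) (hQ : Nondeg Q) {e y : V} (hl : Ln Q e y) :
    H255.IFK.Sp (Zg hl) (Zg hl) (Qg Q e y) := by
  refine ⟨le_rfl, Zg_le h2 hl, ?_, ?_, ?_⟩
  · rintro w ⟨c, rfl⟩ g ⟨h1, h2, h3⟩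
    exact S_comm h1 (by rw [ap_smul, h2])
  · rintro g ⟨h1, h2', h3⟩ g' ⟨h1', h2'', h3'⟩
    apply mem_Zg_of_triv hQ hl
    intro v hv hv'
    have hinv : ∀ u, polar Q e u = 0 → polar Q y u = 0 → ap (g * g') u = ap (g' * g) u := by
      intro u hu hu'
      obtain ⟨a, b, hab⟩ := h3 u hu hu'
      obtain ⟨a', b', hab'⟩ := h3' u hu hu'
      rw [ap_mul, ap_mul, hab, hab', ap_add, ap_add, ap_add, ap_add, ap_smul, ap_smul,
        ap_smul, ap_smul, h1, h2', h1', h2'', hab, hab']
      module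
    have hmem : (g' * g)⁻¹ ∈ Qg Q e y := inv_mem (mul_mem ⟨h1', h2'', h3'⟩ ⟨h1, h2', h3⟩)
    obtain ⟨m1, m2, m3⟩ := hmem
    obtain ⟨a, b, hab⟩ := m3 v hv hv'
    have hB1 : polar Q e (ap (g' * g)⁻¹ v) = 0 := by
      simp only [hab, polar_add_right, polar_smul_right, polar_self0 h2, hl.ey, hv, smul_zero, add_zero]
    have hB2 : polar Q y (ap (g' * g)⁻¹ v) = 0 := by
      simp only [hab, polar_add_right, polar_smul_right, polar_self0 h2, hl.symm.ey, hv', smul_zero, add_zero]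
    have h5 := hinv _ hB1 hB2
    have h6 : g * g' * g⁻¹ * g'⁻¹ = (g * g') * (g' * g)⁻¹ := by group
    rw [h6, ap_mul, h5, ap_ap_inv]
  · rintro g hg hgZ z ⟨c, rfl⟩
    obtain ⟨h1, h2', h3⟩ := hg
    have : ∃ w, polar Q e w = 0 ∧ polar Q y w = 0 ∧ ap g w ≠ w := by
      by_contra hcon
      push Not at hcon
      exact hgZ (mem_Zg_of_triv hQ hl hcon)
    obtain ⟨w, hw, hw', hne⟩ := this
    obtain ⟨a, b, hab⟩ := h3 w hw hw'
    by_cases hb : b = 0
    · -- use `S y`
      have ha : a ≠ 0 := by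
        rintro rfl
        apply hne
        rw [hab, hb]
        module
      have hyw : polar Q y ((-c * a⁻¹) • w) = 0 := by rw [polar_smul_right, hw', smul_zero]
      have hew : polar Q e ((-c * a⁻¹) • w) = 0 := by rw [polar_smul_right, hw, smul_zero]
      have hye : polar Q y ((-c) • e) = 0 := hl.symm.pc _
      refine ⟨S Q y ((-c * a⁻¹) • w), by
        rw [Qg_symm]
        exact S_mem_Qg h2 hl.symm hyw hew, ?_⟩
      have e1 : ap g ((-c * a⁻¹) • w) = (-c) • e + (-c * a⁻¹) • w := by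
        rw [ap_smul, hab, hb, smul_add, smul_add, smul_smul, smul_smul, mul_zero, zero_smul, add_zero, mul_assoc,
          inv_mul_cancel₀ ha, mul_one, add_comm]
      rw [S_conj, h2', e1, S_add hl.qy hye hyw, mul_inv_cancel_right, S_swap' hl, neg_neg]
    · have hew : polar Q e ((c * b⁻¹) • w) = 0 := by rw [polar_smul_right, hw, smul_zero]
      have hyw : polar Q y ((c * b⁻¹) • w) = 0 := by rw [polar_smul_right, hw', smul_zero]
      refine ⟨S Q e ((c * b⁻¹) • w), S_mem_Qg h2 hl hew hyw, ?_⟩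
      have e1 : ap g ((c * b⁻¹) • w) = (c • y + (c * b⁻¹ * a) • e) + (c * b⁻¹) • w := by
        rw [ap_smul, hab, smul_add, smul_add, smul_smul, smul_smul, mul_assoc c b⁻¹ b, inv_mul_cancel₀ hb, mul_one]
        abel
      have hee : polar Q e ((c * b⁻¹ * a) • e) = 0 := by rw [polar_smul_right, polar_self0 h2, smul_zero]
      rw [S_conj, h1, e1, S_add hl.qe (by rw [polar_add_right, hl.pc, hee, add_zero]) hew, mul_inv_cancel_right,
        S_add hl.qe (hl.pc c) hee, S_self_smul _ hl.qe, mul_one]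

end Cfsg.Agent.H545.Fx
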